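import Cfsg.Agent.Lib.Transfer.Tate
import Cfsg.Agent.Lib.Transfer.Frat
import Cfsg.Agent.Lib.Core.Frattini
import Cfsg.Agent.Lib.FStar.GenFitting
import Cfsg.Agent.Lib.FStar.Layer
import Cfsg.Agent.Lib.FStar.Constrained
import Cfsg.Agent.Lib.FStar.PComponent
import Cfsg.Agent.Lib.Amalgam.TraceV
import Cfsg.Agent.Lib.SchurLocal.Basic
import Mathlib

/-!
# Sylow subgroups whose Frattini subgroup has index `p²`.  Owner: helper17.
-/

set_option autoImplicit false
set_option linter.unusedSectionVars false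

namespace Cfsg.Agent.Lib.FrattSyl

open Cfsg Subgroup Cfsg.Agent.Lib.Core Cfsg.Agent.Lib.Transfer Cfsg.Agent.Lib.FStar
open scoped commutatorElement

variable {G : Type*} [Group G] [Finite G] {p : ℕ} [hp : Fact p.Prime]

/-- If `Φ(Q)` has index `p²` and the normal subgroup `J` is not inside `Φ(Q)`, then `Q = J⟨x⟩`. -/
theorem exists_gen_of_frattini_index {Q : Type*} [Group Q] [Finite Q] (J : Subgroup Q) [hJ : J.Normal]
    (hidx : (frattini Q).index = p ^ 2) (hJF : ¬ J ≤ frattini Q) :
    ∃ x : Q, ∀ y : Q, ∃ j ∈ J, ∃ n : ℤ, y = j * x ^ n := by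
  have hpp : p.Prime := hp.out
  haveI hΦ : (frattini Q).Normal := inferInstance
  set M := J ⊔ frattini Q with hM
  haveI hMn : M.Normal := Subgroup.sup_normal _ _
  have hle : frattini Q ≤ M := le_sup_right
  have hne0 : (frattini Q).relIndex M * M.index = p ^ 2 := by
    rw [Subgroup.relIndex_mul_index hle, hidx]
  have hdvd : M.index ∣ p ^ 2 := ⟨_, by rw [← hne0, mul_comm]⟩
  have hne : M.index ≠ p ^ 2 := by
    intro h
    rw [h] at hne0
    have h1 : (frattini Q).relIndex M = 1 := by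
      have hpos : 0 < p ^ 2 := pow_pos hpp.pos 2
      nlinarith [Nat.eq_of_mul_eq_mul_right hpos (show (frattini Q).relIndex M * p ^ 2 = 1 * p ^ 2 by omega)]
    have h2 : M ≤ frattini Q := Subgroup.relIndex_eq_one.mp h1
    exact hJF (le_sup_left.trans h2)
  have hdp : M.index ∣ p := by
    obtain ⟨k, hk, hk2⟩ := (Nat.dvd_prime_pow hpp).mp hdvd
    have hk3 : k ≠ 2 := fun h => hne (by rw [hk2, h])
    have hk4 : k ≤ 1 := by omega
    rw [hk2]
    exact (pow_dvd_pow p hk4).trans (by simp)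
  have hcard : Nat.card (Q ⧸ M) ∣ p := hdp
  haveI : IsCyclic (Q ⧸ M) := isCyclic_of_card_dvd_prime hcard
  obtain ⟨g, hg⟩ := IsCyclic.exists_generator (α := Q ⧸ M)
  obtain ⟨x, rfl⟩ := QuotientGroup.mk_surjective g
  refine ⟨x, ?_⟩
  have htop : (J ⊔ zpowers x) ⊔ frattini Q = ⊤ := by
    rw [eq_top_iff]
    intro y _
    obtain ⟨n, hn⟩ := Subgroup.mem_zpowers_iff.mp (hg (y : Q ⧸ M))
    have h1 : (x ^ n)⁻¹ * y ∈ M := by
      apply QuotientGroup.eq.mp
      rw [← hn, QuotientGroup.mk_zpow]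
    have h2 : M ≤ (J ⊔ zpowers x) ⊔ frattini Q := sup_le_sup_right le_sup_left _
    have h3 := h2 h1
    have h4 : x ^ n ∈ (J ⊔ zpowers x) ⊔ frattini Q :=
      Subgroup.mem_sup_left (Subgroup.mem_sup_right (zpow_mem (Subgroup.mem_zpowers x) n))
    have := mul_mem h4 h3
    simpa using this
  have htop2 : J ⊔ zpowers x = ⊤ := eq_top_of_sup_eq_top_of_le_frattini le_rfl htop
  intro y
  have hy : y ∈ ((J ⊔ zpowers x : Subgroup Q) : Set Q) := by rw [htop2]; trivial
  rw [Subgroup.normal_mul] at hy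
  obtain ⟨j, hj, z, hz, rfl⟩ := Set.mem_mul.mp hy
  obtain ⟨n, rfl⟩ := Subgroup.mem_zpowers_iff.mp hz
  exact ⟨j, hj, n, rfl⟩

/-- The same, with `Q = P` a subgroup and `J = A ∩ P`. -/
theorem exists_gen_of_normalizes (P : Subgroup G) (A : Subgroup G)
    (hPA : P ≤ normalizer (A : Set G)) (hidx : (frattini P).index = p ^ 2)
    (hAP : ¬ A ⊓ P ≤ (frattini P).map P.subtype) :
    ∃ x ∈ P, ∀ y ∈ P, ∃ j ∈ A, ∃ n : ℤ, y = j * x ^ n := by
  set J : Subgroup P := A.subgroupOf P with hJ
  haveI hJn : J.Normal := by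
    constructor
    intro n hn g
    rw [hJ, mem_subgroupOf] at hn ⊢
    exact (mem_normalizer_iff.mp (hPA g.2) _).mp hn
  have hJF : ¬ J ≤ frattini P := by
    intro h
    apply hAP
    intro a ha
    exact ⟨⟨a, ha.2⟩, h (by rw [hJ, mem_subgroupOf]; exact ha.1), rfl⟩
  obtain ⟨x, hx⟩ := exists_gen_of_frattini_index J hidx hJF
  refine ⟨x, x.2, fun y hy => ?_⟩
  obtain ⟨j, hj, n, hn⟩ := hx ⟨y, hy⟩
  refine ⟨j, (by rw [hJ, mem_subgroupOf] at hj; exact hj), n, ?_⟩
  have := congrArg Subtype.val hn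
  simpa using this

/-- The commutators of `P` lie in `A`. -/
theorem commutator_mem_of_normalizes (P : Subgroup G) (A : Subgroup G)
    (hPA : P ≤ normalizer (A : Set G)) (hidx : (frattini P).index = p ^ 2)
    (hAP : ¬ A ⊓ P ≤ (frattini P).map P.subtype) {a b : G} (ha : a ∈ P) (hb : b ∈ P) :
    ⁅a, b⁆ ∈ A := by
  set J : Subgroup P := A.subgroupOf P with hJ
  haveI hJn : J.Normal := by
    constructor
    intro n hn g
    rw [hJ, mem_subgroupOf] at hn ⊢
    exact (mem_normalizer_iff.mp (hPA g.2) _).mp hn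
  have hJF : ¬ J ≤ frattini P := by
    intro h
    apply hAP
    intro a ha
    exact ⟨⟨a, ha.2⟩, h (by rw [hJ, mem_subgroupOf]; exact ha.1), rfl⟩
  obtain ⟨x, hx⟩ := exists_gen_of_frattini_index J hidx hJF
  have h1 : ∀ y : P, (y : P ⧸ J) ∈ zpowers (x : P ⧸ J) := by
    intro y
    obtain ⟨j, hj, n, rfl⟩ := hx y
    refine Subgroup.mem_zpowers_iff.mpr ⟨n, ?_⟩
    rw [QuotientGroup.mk_mul, (QuotientGroup.eq_one_iff j).mpr hj, one_mul, QuotientGroup.mk_zpow]
  have h2 : ∀ u v : P, (u : P ⧸ J) * (v : P ⧸ J) = (v : P ⧸ J) * (u : P ⧸ J) := by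
    intro u v
    obtain ⟨m, hm⟩ := Subgroup.mem_zpowers_iff.mp (h1 u)
    obtain ⟨n, hn⟩ := Subgroup.mem_zpowers_iff.mp (h1 v)
    rw [← hm, ← hn]
    exact ((Commute.refl _).zpow_zpow _ _).eq
  have h3 : (⁅(⟨a, ha⟩ : P), (⟨b, hb⟩ : P)⁆ : P) ∈ J := by
    rw [← QuotientGroup.eq_one_iff]
    show QuotientGroup.mk' J _ = 1
    rw [map_commutatorElement, commutatorElement_eq_one_iff_mul_comm]
    exact h2 _ _
  rw [hJ, mem_subgroupOf] at h3
  exact h3

/-- A normal subgroup meeting a Sylow subgroup trivially has order prime to `p`. -/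
theorem coprime_of_inf_sylow_eq_bot (P : Sylow p G) (K : Subgroup G) [hKn : K.Normal]
    (hbot : K ⊓ (P : Subgroup G) = ⊥) : (Nat.card K).Coprime p := by
  have hpp : p.Prime := hp.out
  rw [Nat.coprime_comm, Nat.Prime.coprime_iff_not_dvd hpp]
  intro hd
  obtain ⟨⟨x, hx⟩, hxo⟩ := exists_prime_orderOf_dvd_card' p hd
  have hxo' : orderOf x = p := by simpa using hxo
  have hzp : IsPGroup p (Subgroup.zpowers x) :=
    IsPGroup.iff_card.mpr ⟨1, by rw [Nat.card_zpowers, hxo', pow_one]⟩
  obtain ⟨Q, hQ⟩ := hzp.exists_le_sylow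
  obtain ⟨g, hg⟩ := MulAction.exists_smul_eq G P Q
  have hxQ : x ∈ (Q : Subgroup G) := hQ (Subgroup.mem_zpowers x)
  rw [← hg, sylow_smul_mem] at hxQ
  have h1 : g⁻¹ * x * g ∈ K := by
    have := hKn.conj_mem x hx g⁻¹
    simpa using this
  have h2 : g⁻¹ * x * g ∈ K ⊓ (P : Subgroup G) := Subgroup.mem_inf.mpr ⟨h1, hxQ⟩
  rw [hbot] at h2
  have h3 : g⁻¹ * x * g = 1 := h2
  have h4 : x = 1 := by
    have : x = g * (g⁻¹ * x * g) * g⁻¹ := by group
    rw [this, h3]; group
  rw [h4, orderOf_one] at hxo'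
  exact hpp.one_lt.ne hxo'

section trace

open Cfsg.Agent.Lib.Amalgam.TraceV

variable {H : Type*} [Group H] [Finite H] {V X S : Subgroup H}
  {hV : ∀ a ∈ V, ∀ b ∈ V, a * b = b * a} {hXV : X ≤ normalizer (V : Set H)}

/-- `tr(a) a^{-m}` lies in any subgroup containing the `[g, a]`. -/
theorem trV_mul_pow_mem_of (D : Subgroup H) (a : V) (h : ∀ g ∈ X, g * (a : H) * g⁻¹ * (a : H)⁻¹ ∈ D) :
    ((trV V X S hV hXV a : V) : H) * ((a : H) ^ (S.relIndex X))⁻¹ ∈ D := by
  letI := commOf V hV
  letI : Fintype (X ⧸ S.subgroupOf X) := Fintype.ofFinite _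
  let D' : Subgroup V := D.subgroupOf V
  have h1 : (∏ q : X ⧸ S.subgroupOf X, (cv V (hXV (q.out).2) a * a⁻¹)) ∈ D' := by
    apply Subgroup.prod_mem
    intro q _
    show _ ∈ D
    exact h _ (q.out).2
  rw [Finset.prod_mul_distrib, Finset.prod_const, Finset.card_univ, ← Nat.card_eq_fintype_card] at h1
  have h2 : Nat.card (X ⧸ S.subgroupOf X) = S.relIndex X := rfl
  rw [h2] at h1
  have h3 : ((trV V X S hV hXV a : V) * (a⁻¹) ^ (S.relIndex X)) ∈ D' := h1
  have h4 : (((trV V X S hV hXV a : V) * (a⁻¹) ^ (S.relIndex X) : V) : H) ∈ D := h3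
  simpa using h4

end trace

section main

variable (P : Sylow p G) (hcore : pPrimeCore p G = ⊥)
  (hfrat : ((frattini (P : Subgroup G)).map (P : Subgroup G).subtype).normalCore = ⊥)

include hcore hfrat

/-- **L1**: a nontrivial normal subgroup does not meet `P` inside `Φ(P)`. -/
theorem inf_sylow_not_le (K : Subgroup G) [hKn : K.Normal] (hK : K ≠ ⊥) :
    ¬ K ⊓ (P : Subgroup G) ≤ (frattini (P : Subgroup G)).map (P : Subgroup G).subtype := by
  intro h
  haveI hRn := residual_map_normal (p := p) K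
  set R := (pResidual p K).map K.subtype with hR
  have hRK : R ≤ K := Subgroup.map_subtype_le _
  have hbot : R ⊓ (P : Subgroup G) = ⊥ := tate_core P R (residual_map_residual K)
    ((inf_le_inf_right _ hRK).trans h)
  have hcop := coprime_of_inf_sylow_eq_bot P R hbot
  have hRb : R ≤ pPrimeCore p G := le_pPrimeCore hRn hcop
  rw [hcore, le_bot_iff] at hRb
  have hres : pResidual p K = ⊥ := by
    rw [hR] at hRb
    exact (Subgroup.map_eq_bot_iff_of_injective _ K.subtype_injective).mp hRb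
  -- `K` is a `p`-group
  have hKp : IsPGroup p K := by
    haveI : (pResidual p K).Normal := pResidual_normal
    have h1 : IsPGroup p (K ⧸ pResidual p K) := isPGroup_quotient_pResidual
    intro k
    obtain ⟨n, hn⟩ := h1 (k : K ⧸ pResidual p K)
    refine ⟨n, ?_⟩
    rw [← QuotientGroup.mk_pow, QuotientGroup.eq_one_iff, hres] at hn
    exact hn
  have hKP : K ≤ (P : Subgroup G) := (le_pCore hKn hKp).trans (pCore_le_sylow P)
  have hKF : K ≤ ((frattini (P : Subgroup G)).map (P : Subgroup G).subtype).normalCore := by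
    rw [Subgroup.normal_le_normalCore]
    exact (le_inf le_rfl hKP).trans h
  rw [hfrat, le_bot_iff] at hKF
  exact hK hKF

/-- The commutators of `O_p(G)` vanish. -/
theorem pCore_comm : ∀ a ∈ pCore p G, ∀ b ∈ pCore p G, a * b = b * a := by
  have hRP : pCore p G ≤ (P : Subgroup G) := pCore_le_sylow P
  haveI hRn : (pCore p G).Normal := pCore_normal p G
  have hle : ⁅pCore p G, pCore p G⁆ ≤
      ((frattini (P : Subgroup G)).map (P : Subgroup G).subtype).normalCore := by
    rw [Subgroup.normal_le_normalCore]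
    rw [Subgroup.commutator_le]
    intro a ha b hb
    have h1 : ⁅(⟨a, hRP ha⟩ : (P : Subgroup G)), (⟨b, hRP hb⟩ : (P : Subgroup G))⁆ ∈ frattini (P : Subgroup G) :=
      commutator_le_frattini P.isPGroup' (Subgroup.commutator_mem_commutator trivial trivial)
    exact ⟨_, h1, rfl⟩
  rw [hfrat, le_bot_iff] at hle
  intro a ha b hb
  have := Subgroup.commutator_mem_commutator ha hb
  rw [hle, Subgroup.mem_bot, commutatorElement_eq_one_iff_mul_comm] at this
  exact this

/-- With `P = N⟨x⟩`, `N` abelian in `O_p(G)`: no components. -/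
theorem layer_eq_bot_of_comm {x : G} (N : Subgroup G) [hN : N.Normal] (hNb : N ≠ ⊥)
    (hmin : ∀ K : Subgroup G, K.Normal → K ≠ ⊥ → N ≤ K)
    (hc : ∀ a ∈ N, ∀ b ∈ N, a * b = b * a) (hNR : N ≤ pCore p G)
    (hx : ∀ y ∈ (P : Subgroup G), ∃ j ∈ N, ∃ n : ℤ, y = j * x ^ n) : layer G = ⊥ := by
  by_contra hE
  have hNE : N ≤ layer G := hmin _ (layer_normal G) hE
  have hcomm := layer_commute_pCore (p := p) (Q := G)
  obtain ⟨⟨z, hzN⟩, hz1⟩ := Subgroup.ne_bot_iff_exists_ne_one.mp hNb
  have hz1' : z ≠ 1 := fun h => hz1 (Subtype.ext h)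
  have hNP : N ≤ (P : Subgroup G) := hNR.trans (pCore_le_sylow P)
  set Q : Subgroup (layer G) := (P : Subgroup G).subgroupOf (layer G) with hQ
  set a : layer G := ⟨z, hNE hzN⟩ with ha
  have haQ : a ∈ Q := by rw [hQ, mem_subgroupOf]; exact hNP hzN
  have hac : a ∈ Subgroup.center (layer G) := by
    rw [Subgroup.mem_center_iff]
    intro g
    apply Subtype.ext
    exact mul_comm_of_commutator_eq_bot hcomm g.2 (hNR hzN)
  have had : a ∈ commutator (layer G) := by
    have h1 : (commutator (layer G)).map (layer G).subtype = layer G := by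
      rw [commutator_def, map_commutator, ← MonoidHom.range_eq_map, Subgroup.range_subtype]
      exact layer_perfect G
    have h2 : z ∈ (commutator (layer G)).map (layer G).subtype := by rw [h1]; exact hNE hzN
    obtain ⟨w, hw, hwz⟩ := h2
    have : w = a := Subtype.ext hwz
    rwa [← this]
  have hQcomm : ∀ u v : Q, u * v = v * u := by
    intro u v
    apply Subtype.ext
    apply Subtype.ext
    show ((u : layer G) : G) * ((v : layer G) : G) = ((v : layer G) : G) * ((u : layer G) : G)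
    obtain ⟨j, hj, n, hjn⟩ := hx _ (mem_subgroupOf.mp u.2)
    obtain ⟨i, hi, m, him⟩ := hx _ (mem_subgroupOf.mp v.2)
    have hxn : x ^ n ∈ layer G := by
      have e : x ^ n = j⁻¹ * ((u : layer G) : G) := by rw [hjn]; group
      rw [e]
      exact mul_mem (inv_mem (hNE hj)) (u : layer G).2
    have hxm : x ^ m ∈ layer G := by
      have e : x ^ m = i⁻¹ * ((v : layer G) : G) := by rw [him]; group
      rw [e]
      exact mul_mem (inv_mem (hNE hi)) (v : layer G).2
    rw [hjn, him]
    have c1 : Commute j i := hc j hj i hi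
    have c2 : Commute j (x ^ m) := (mul_comm_of_commutator_eq_bot hcomm hxm (hNR hj)).symm
    have c3 : Commute (x ^ n) i := mul_comm_of_commutator_eq_bot hcomm hxn (hNR hi)
    have c4 : Commute (x ^ n) (x ^ m) := (Commute.refl x).zpow_zpow n m
    exact ((c1.mul_right c2).mul_left (c3.mul_right c4)).eq
  have hcop : Nat.Coprime Q.index (orderOf a) := by
    have hap : ∃ k, orderOf a = p ^ k := by
      have h1 : orderOf a = orderOf z := Subgroup.orderOf_mk z _
      have h2 := (IsPGroup.iff_orderOf.mp (pCore_isPGroup p G)) ⟨z, hNR hzN⟩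
      obtain ⟨k, hk⟩ := h2
      refine ⟨k, ?_⟩
      rw [h1, ← hk]
      exact (Subgroup.orderOf_mk z _).symm
    obtain ⟨k, hk⟩ := hap
    rw [hk]
    apply Nat.Coprime.pow_right
    rw [Nat.coprime_comm, Nat.Prime.coprime_iff_not_dvd hp.out]
    obtain ⟨S, hS⟩ := sylow_inf_normal p (layer G) P
    have : S.index = Q.index := by rw [hQ, ← hS]
    rw [← this]
    exact S.not_dvd_index
  have hmem := Cfsg.Agent.Lib.SchurLocal.mem_commutator_of_coprime Q hcop hac had haQ
  have hb : commutator Q = ⊥ := by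
    rw [eq_bot_iff, commutator_def, Subgroup.commutator_le]
    intro u _ v _
    rw [Subgroup.mem_bot, commutatorElement_eq_one_iff_mul_comm]
    exact hQcomm u v
  rw [hb, Subgroup.mem_bot] at hmem
  apply hz1'
  have := congrArg Subtype.val (congrArg Subtype.val hmem)
  simpa [ha] using this

/-- With `P = N⟨x⟩`, `N` abelian normal, `N` below every nontrivial normal subgroup, `P` nonabelian:
`O_p(G) = N`. -/
theorem pCore_le_of_comm {x : G} (hxP : x ∈ (P : Subgroup G))
    (hna : ∃ a ∈ (P : Subgroup G), ∃ b ∈ (P : Subgroup G), a * b ≠ b * a)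
    (N : Subgroup G) [hN : N.Normal]
    (hmin : ∀ K : Subgroup G, K.Normal → K ≠ ⊥ → N ≤ K)
    (hc : ∀ a ∈ N, ∀ b ∈ N, a * b = b * a) (hNR : N ≤ pCore p G)
    (hx : ∀ y ∈ (P : Subgroup G), ∃ j ∈ N, ∃ n : ℤ, y = j * x ^ n) : pCore p G ≤ N := by
  classical
  have hRc := pCore_comm P hcore hfrat
  have hRP : pCore p G ≤ (P : Subgroup G) := pCore_le_sylow P
  haveI hRn : (pCore p G).Normal := pCore_normal p G
  set R := pCore p G with hR
  by_contra hRN
  obtain ⟨y, hyR, hyN⟩ := SetLike.not_le_iff_exists.mp hRN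
  obtain ⟨j, hj, n, hyeq⟩ := hx y (hRP hyR)
  set z := x ^ n with hz
  have hzR : z ∈ R := by
    have e : z = j⁻¹ * y := by rw [hyeq]; group
    rw [e]
    exact mul_mem (inv_mem (hNR hj)) hyR
  have hzN : z ∉ N := by
    intro h
    apply hyN
    rw [hyeq]
    exact mul_mem hj h
  have hzP : ∀ s ∈ (P : Subgroup G), z * s = s * z := by
    intro s hs
    obtain ⟨i, hi, m, rfl⟩ := hx s hs
    have c1 : Commute z i := hRc z hzR i (hNR hi)
    have c2 : Commute z (x ^ m) := (Commute.refl x).zpow_zpow n m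
    exact (c1.mul_right c2).eq
  set π := QuotientGroup.mk' N with hπ
  have hπs : Function.Surjective π := QuotientGroup.mk'_surjective N
  haveI hRbar : (R.map π).Normal := Subgroup.Normal.map hRn π hπs
  let L : Subgroup G := (centralizer ((R.map π : Subgroup (G ⧸ N)) : Set (G ⧸ N))).comap π
  haveI hLn : L.Normal := by
    haveI : (centralizer ((R.map π : Subgroup (G ⧸ N)) : Set (G ⧸ N))).Normal := normal_centralizer
    exact Subgroup.Normal.comap inferInstance π
  have hπP : ∀ u ∈ (P : Subgroup G), ∃ m : ℤ, π u = π x ^ m := by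
    intro u hu
    obtain ⟨i, hi, m, rfl⟩ := hx u hu
    refine ⟨m, ?_⟩
    rw [map_mul, map_zpow]
    have : π i = 1 := by
      rw [hπ, QuotientGroup.mk'_apply, QuotientGroup.eq_one_iff]
      exact hi
    rw [this, one_mul]
  have hPL : (P : Subgroup G) ≤ L := by
    intro u hu
    show π u ∈ centralizer _
    rw [Subgroup.mem_centralizer_iff]
    rintro _ ⟨r, hr, rfl⟩
    obtain ⟨m, hm⟩ := hπP u hu
    obtain ⟨k, hk⟩ := hπP r (hRP hr)
    rw [hm, hk]
    exact ((Commute.refl (π x)).zpow_zpow k m).eq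
  have hLV : L ≤ normalizer (R : Set G) := by
    intro g _
    rw [mem_normalizer_iff]
    intro h
    constructor
    · exact fun hh => hRn.conj_mem h hh g
    · intro hh
      have := hRn.conj_mem _ hh g⁻¹
      simpa [mul_assoc] using this
  set T := Cfsg.Agent.Lib.Amalgam.TraceV.trV R L (P : Subgroup G) hRc hLV ⟨z, hzR⟩ with hT
  have hTL : ∀ g ∈ L, g * (T : G) = (T : G) * g := fun g hg =>
    Cfsg.Agent.Lib.Amalgam.TraceV.trV_comm (hV := hRc) (hXV := hLV) hg ⟨z, hzR⟩ hzP
  have hTm : (T : G) * (z ^ ((P : Subgroup G).relIndex L))⁻¹ ∈ N := by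
    apply trV_mul_pow_mem_of N ⟨z, hzR⟩
    intro g hg
    have h1 : π g ∈ centralizer ((R.map π : Subgroup (G ⧸ N)) : Set (G ⧸ N)) := hg
    rw [Subgroup.mem_centralizer_iff] at h1
    have h2 := h1 (π z) ⟨z, hzR, rfl⟩
    rw [← QuotientGroup.eq_one_iff]
    show π _ = 1
    simp only [map_mul, map_inv]
    rw [← h2]
    group
  -- `T` is not in `N`
  have hmcop : ¬ p ∣ (P : Subgroup G).relIndex L := by
    intro h
    apply P.not_dvd_index
    exact h.trans ⟨L.index, (Subgroup.relIndex_mul_index hPL).symm⟩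
  have hTN : (T : G) ∉ N := by
    intro hTN
    have h1 : z ^ ((P : Subgroup G).relIndex L) ∈ N := by
      have e : z ^ ((P : Subgroup G).relIndex L) =
          ((T : G) * (z ^ ((P : Subgroup G).relIndex L))⁻¹)⁻¹ * (T : G) := by group
      rw [e]
      exact mul_mem (inv_mem hTm) hTN
    apply hzN
    have hzo : ∃ k, orderOf z = p ^ k := by
      obtain ⟨k, hk⟩ := (IsPGroup.iff_orderOf.mp (pCore_isPGroup p G)) ⟨z, hzR⟩
      refine ⟨k, ?_⟩
      rw [← hk]
      exact (Subgroup.orderOf_mk z _).symm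
    obtain ⟨k, hk⟩ := hzo
    have hcop : Nat.Coprime ((P : Subgroup G).relIndex L) (orderOf z) := by
      rw [hk]
      apply Nat.Coprime.pow_right
      rw [Nat.coprime_comm, Nat.Prime.coprime_iff_not_dvd hp.out]
      exact hmcop
    obtain ⟨t, ht⟩ := exists_pow_eq_self_of_coprime hcop
    rw [← ht]
    exact pow_mem h1 t
  have hT1 : (T : G) ≠ 1 := fun h => hTN (h ▸ one_mem _)
  -- the fixed points
  let C : Subgroup G := R ⊓ centralizer (L : Set G)
  haveI hCn : C.Normal := by
    haveI : (centralizer (L : Set G)).Normal := normal_centralizer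
    exact Subgroup.normal_inf_normal _ _
  have hTC : (T : G) ∈ C := by
    refine ⟨T.2, ?_⟩
    show (T : G) ∈ centralizer (L : Set G)
    rw [Subgroup.mem_centralizer_iff]
    exact fun g hg => hTL g hg
  have hCb : C ≠ ⊥ := by
    intro h
    rw [h, Subgroup.mem_bot] at hTC
    exact hT1 hTC
  have hNC : N ≤ C := hmin C hCn hCb
  -- so `P` is abelian
  obtain ⟨a, ha, b, hb, hab⟩ := hna
  apply hab
  have hNcen : ∀ i ∈ N, ∀ g ∈ (P : Subgroup G), g * i = i * g := by
    intro i hi g hg
    have h1 : i ∈ centralizer (L : Set G) := (hNC hi).2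
    rw [Subgroup.mem_centralizer_iff] at h1
    exact h1 g (hPL hg)
  obtain ⟨i, hi, m, rfl⟩ := hx a ha
  obtain ⟨i', hi', m', rfl⟩ := hx b hb
  have hxmP : ∀ m : ℤ, x ^ m ∈ (P : Subgroup G) := fun m => zpow_mem hxP m
  have c1 : Commute i i' := hc i hi i' hi'
  have c2 : Commute i (x ^ m') := (hNcen i hi _ (hxmP m')).symm
  have c3 : Commute (x ^ m) i' := hNcen i' hi' _ (hxmP m)
  have c4 : Commute (x ^ m) (x ^ m') := (Commute.refl x).zpow_zpow m m'
  exact ((c1.mul_right c2).mul_left (c3.mul_right c4)).eq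

/-- `N` abelian: `F*(G) ≤ N`. -/
theorem gen_le_of_comm (hgen : (frattini (P : Subgroup G)).index = p ^ 2)
    (hna : ∃ a ∈ (P : Subgroup G), ∃ b ∈ (P : Subgroup G), a * b ≠ b * a)
    (N : Subgroup G) [hN : N.Normal] (hNb : N ≠ ⊥)
    (hmin : ∀ K : Subgroup G, K.Normal → K ≠ ⊥ → N ≤ K)
    (hc : ∀ a ∈ N, ∀ b ∈ N, a * b = b * a) : generalizedFittingSubgroup G ≤ N := by
  have hNR : N ≤ pCore p G := by
    rw [← fitting_eq_pCore_of_pPrimeCore_bot hcore]
    exact le_fittingSubgroup hN (isNilpotent_of_comm (fun a b => Subtype.ext (hc a a.2 b b.2)))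
  obtain ⟨x, hxP, hx⟩ := exists_gen_of_normalizes (P : Subgroup G) N
    (fun g _ => by
      rw [mem_normalizer_iff]
      intro h
      constructor
      · exact fun hh => hN.conj_mem h hh g
      · intro hh
        have := hN.conj_mem _ hh g⁻¹
        simpa [mul_assoc] using this) hgen (inf_sylow_not_le P hcore hfrat N hNb)
  have hE := layer_eq_bot_of_comm P hcore hfrat N hNb hmin hc hNR hx
  rw [gen_eq_pCore_of_bot hcore hE]
  exact pCore_le_of_comm P hcore hfrat hxP hna N hmin hc hNR hx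

end main

section comps

/-- `N` nonabelian below all nontrivial normal subgroups. -/
theorem gen_le_of_noncomm (N : Subgroup G) [hN : N.Normal]
    (hmin : ∀ K : Subgroup G, K.Normal → K ≠ ⊥ → N ≤ K)
    (hnc : ∃ a ∈ N, ∃ b ∈ N, a * b ≠ b * a) :
    centralizer (N : Set G) = ⊥ ∧ fittingSubgroup G = ⊥ ∧ layer G ≤ N := by
  have hC : centralizer (N : Set G) = ⊥ := by
    by_contra h
    haveI hCn : (centralizer (N : Set G)).Normal := normal_centralizer
    have h1 := hmin _ hCn h
    obtain ⟨a, ha, b, hb, hab⟩ := hnc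
    have h2 := h1 hb
    rw [Subgroup.mem_centralizer_iff] at h2
    exact hab (h2 a ha)
  refine ⟨hC, ?_, ?_⟩
  · by_contra hfb
    have h1 : N ≤ fittingSubgroup G := hmin _ inferInstance hfb
    have h2 : Group.IsNilpotent N := isNilpotent_of_le h1 (isNilpotent_fittingSubgroup G)
    obtain ⟨a, ha, b, hb, hab⟩ := hnc
    have hnt : (⊤ : Subgroup N) ≠ ⊥ := by
      intro h
      have h3 : (⟨a, ha⟩ : N) ∈ (⊤ : Subgroup N) := trivial
      rw [h, Subgroup.mem_bot] at h3
      apply hab
      have h4 : a = 1 := congrArg Subtype.val h3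
      rw [h4]; group
    have h3 := normal_inf_center_ne_bot (⊤ : Subgroup N) hnt
    obtain ⟨⟨z, hz⟩, hz1⟩ := Subgroup.ne_bot_iff_exists_ne_one.mp h3
    apply hz1
    have hzc : z ∈ center N := hz.2
    have h5 : (z : G) ∈ centralizer (N : Set G) := by
      rw [Subgroup.mem_centralizer_iff]
      intro h hh
      have := (Subgroup.mem_center_iff.mp hzc) ⟨h, hh⟩
      exact congrArg Subtype.val this
    rw [hC, Subgroup.mem_bot] at h5
    apply Subtype.ext
    exact Subtype.ext h5
  · refine sSup_le fun K hK => ?_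
    rcases component_le_or_commute_of_normal hK N with h | h
    · exact h
    · exfalso
      have h1 : K ≤ centralizer (N : Set G) := Subgroup.commutator_eq_bot_iff_le_centralizer.mp h
      rw [hC, le_bot_iff] at h1
      exact qs_subgroup_ne_bot hK.2 h1

/-- The join of the `P`-conjugates of `K`. -/
noncomputable def orbitSup (P K : Subgroup G) : Subgroup G :=
  ⨆ x : P, K.map (MulAut.conj (x : G)).toMonoidHom

theorem map_le_orbitSup (P K : Subgroup G) {x : G} (hx : x ∈ P) :
    K.map (MulAut.conj x).toMonoidHom ≤ orbitSup P K :=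
  le_iSup (fun x : P => K.map (MulAut.conj (x : G)).toMonoidHom) ⟨x, hx⟩

theorem le_orbitSup (P K : Subgroup G) : K ≤ orbitSup P K := by
  have h := map_le_orbitSup P K (one_mem P)
  intro k hk
  exact h ⟨k, hk, by simp⟩

theorem le_normalizer_orbitSup (P K : Subgroup G) : P ≤ normalizer ((orbitSup P K : Subgroup G) : Set G) := by
  intro y hy
  rw [mem_normalizer_iff_map_conj_eq]
  have key : ∀ x : P, (K.map (MulAut.conj (x : G)).toMonoidHom).map (MulAut.conj y).toMonoidHom =
      K.map (MulAut.conj (((⟨y, hy⟩ : P) * x : P) : G)).toMonoidHom := by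
    intro x
    rw [Subgroup.map_map]
    congr 1
    ext k
    simp [MulAut.conj_apply, mul_assoc]
  show (orbitSup P K).map (MulAut.conj y).toMonoidHom = orbitSup P K
  unfold orbitSup
  rw [Subgroup.map_iSup, iSup_congr key]
  exact (Equiv.mulLeft (⟨y, hy⟩ : P)).iSup_comp (g := fun x : P => K.map (MulAut.conj (x : G)).toMonoidHom)

theorem orbitSup_perfect (P : Subgroup G) {K : Subgroup G} (hK : IsComponent K) :
    ⁅orbitSup P K, orbitSup P K⁆ = orbitSup P K := by
  apply le_antisymm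
  · rw [Subgroup.commutator_le]
    intro a ha b hb
    exact mul_mem (mul_mem (mul_mem ha hb) (inv_mem ha)) (inv_mem hb)
  · refine iSup_le fun x => ?_
    have h1 := qs_subgroup_perfect (component_map_conj (x : G) hK).2
    rw [← h1]
    exact Subgroup.commutator_mono (map_le_orbitSup P K x.2) (map_le_orbitSup P K x.2)

theorem pResidual_eq_top_of_perfect {Y : Type*} [Group Y] [Finite Y] (T : Subgroup Y) (h : ⁅T, T⁆ = T) :
    pResidual p T = ⊤ := by
  have hperf : commutator T = ⊤ := by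
    apply Subgroup.map_injective T.subtype_injective
    rw [commutator_def, map_commutator, ← MonoidHom.range_eq_map, Subgroup.range_subtype, h]
  haveI : (pResidual p T).Normal := pResidual_normal
  rw [eq_top_iff]
  refine perfect_le_of_pow_mem (p := p) (Y := (⊤ : Subgroup T)) (W := pResidual p T) ?_ ?_
  · rw [← commutator_def]; exact hperf
  · intro y _
    have h1 : IsPGroup p (T ⧸ pResidual p T) := isPGroup_quotient_pResidual
    obtain ⟨k, hk⟩ := h1 (y : T ⧸ pResidual p T)
    refine ⟨k, ?_⟩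
    rw [← QuotientGroup.mk_pow, QuotientGroup.eq_one_iff] at hk
    exact hk

/-- **Tate in the normalizer**: the `P`-orbit of a component meets `P` outside `Φ(P)`. -/
theorem not_le_of_orbit (P : Sylow p G) (hcore : pPrimeCore p G = ⊥) {K : Subgroup G} (hK : IsComponent K) :
    ¬ orbitSup (P : Subgroup G) K ⊓ (P : Subgroup G) ≤
      (frattini (P : Subgroup G)).map (P : Subgroup G).subtype := by
  intro h
  set A := orbitSup (P : Subgroup G) K with hA
  have hPX : (P : Subgroup G) ≤ normalizer (A : Set G) := le_normalizer_orbitSup _ _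
  set X := normalizer (A : Set G) with hX
  have hAX : A ≤ X := Subgroup.le_normalizer
  let PX : Sylow p X := P.subtype hPX
  have hPXc : ∀ w : X, w ∈ (PX : Subgroup X) ↔ (w : G) ∈ (P : Subgroup G) := by
    intro w
    rw [Sylow.coe_subtype, mem_subgroupOf]
  haveI hAn : (A.subgroupOf X).Normal := by
    constructor
    intro n hn g
    rw [mem_subgroupOf] at hn ⊢
    exact (mem_normalizer_iff.mp g.2 _).mp hn
  have hAXp : ⁅A.subgroupOf X, A.subgroupOf X⁆ = A.subgroupOf X := by
    apply Subgroup.map_injective X.subtype_injective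
    rw [map_commutator, Subgroup.map_subgroupOf_eq_of_le hAX]
    exact orbitSup_perfect _ hK
  have hres : pResidual p (A.subgroupOf X) = ⊤ := pResidual_eq_top_of_perfect _ hAXp
  have hle : A.subgroupOf X ⊓ (PX : Subgroup X) ≤ (frattini (PX : Subgroup X)).map (PX : Subgroup X).subtype := by
    rintro w ⟨hw1, hw2⟩
    have hw1' : (w : G) ∈ A := mem_subgroupOf.mp hw1
    have hw2' : (w : G) ∈ (P : Subgroup G) := (hPXc w).mp hw2
    obtain ⟨u, hu, huw⟩ := h ⟨hw1', hw2'⟩
    let e : (P : Subgroup G) →* (PX : Subgroup X) :=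
      { toFun := fun v => ⟨⟨v, hPX v.2⟩, (hPXc _).mpr v.2⟩
        map_one' := rfl
        map_mul' := fun _ _ => rfl }
    have hes : Function.Surjective e := by
      intro v
      exact ⟨⟨_, (hPXc _).mp v.2⟩, rfl⟩
    have h1 := map_frattini_le_of_surjective e hes ⟨u, hu, rfl⟩
    exact ⟨e u, h1, Subtype.ext huw⟩
  have hbot := tate_core PX (A.subgroupOf X) hres hle
  have hcop := coprime_of_inf_sylow_eq_bot PX (A.subgroupOf X) hbot
  have hcard : Nat.card (A.subgroupOf X) = Nat.card A :=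
    Nat.card_congr (Subgroup.subgroupOfEquivOfLe hAX).toEquiv
  have hdvd : Nat.card K ∣ Nat.card A := Subgroup.card_dvd_of_le (le_orbitSup _ _)
  have hcopK : (Nat.card K).Coprime p := Nat.Coprime.coprime_dvd_left hdvd (hcard ▸ hcop)
  have h2 := le_pPrimeCore_of_subnormal p hK.1 hcopK
  rw [hcore, le_bot_iff] at h2
  exact qs_subgroup_ne_bot hK.2 h2

theorem orbitSup_le_centralizer (P : Subgroup G) {K M : Subgroup G} (hK : IsComponent K) (hM : IsComponent M)
    (hne : ∀ x ∈ P, K.map (MulAut.conj x).toMonoidHom ≠ M) : orbitSup P K ≤ centralizer (M : Set G) :=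
  iSup_le fun x => Subgroup.commutator_eq_bot_iff_le_centralizer.mp
    (component_commute (component_map_conj (x : G) hK) hM (hne x x.2))

/-- **Transitivity on components.** -/
theorem components_transitive (P : Sylow p G) (hcore : pPrimeCore p G = ⊥)
    (hgen : (frattini (P : Subgroup G)).index = p ^ 2) {a b : G} (ha : a ∈ (P : Subgroup G))
    (hb : b ∈ (P : Subgroup G)) (hc1 : ⁅a, b⁆ ≠ 1)
    (hCen : ∀ x : G, (∀ M : Subgroup G, IsComponent M → ∀ m ∈ M, m * x = x * m) → x = 1)
    {K L : Subgroup G} (hK : IsComponent K) (hL : IsComponent L) :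
    ∃ x ∈ (P : Subgroup G), L = K.map (MulAut.conj x).toMonoidHom := by
  by_contra hno
  push Not at hno
  have h1 : ⁅a, b⁆ ∈ orbitSup (P : Subgroup G) K :=
    commutator_mem_of_normalizes _ _ (le_normalizer_orbitSup _ _) hgen (not_le_of_orbit P hcore hK) ha hb
  have h2 : ⁅a, b⁆ ∈ orbitSup (P : Subgroup G) L :=
    commutator_mem_of_normalizes _ _ (le_normalizer_orbitSup _ _) hgen (not_le_of_orbit P hcore hL) ha hb
  apply hc1
  apply hCen
  intro M hM m hm
  by_cases hMK : ∃ x ∈ (P : Subgroup G), K.map (MulAut.conj x).toMonoidHom = M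
  · obtain ⟨x, hx, hxM⟩ := hMK
    have h3 : orbitSup (P : Subgroup G) L ≤ centralizer (M : Set G) := by
      refine orbitSup_le_centralizer _ hL hM ?_
      intro y hy hyM
      apply hno (y⁻¹ * x) (mul_mem (inv_mem hy) hx)
      rw [← hxM] at hyM
      have h4 := congrArg (Subgroup.map (MulAut.conj y⁻¹).toMonoidHom) hyM
      rw [Subgroup.map_map, Subgroup.map_map] at h4
      have e1 : (MulAut.conj y⁻¹).toMonoidHom.comp (MulAut.conj y).toMonoidHom = MonoidHom.id G := by
        ext k; simp [MulAut.conj_apply, mul_assoc]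
      have e2 : (MulAut.conj y⁻¹).toMonoidHom.comp (MulAut.conj x).toMonoidHom =
          (MulAut.conj (y⁻¹ * x)).toMonoidHom := by
        ext k; simp [MulAut.conj_apply, mul_assoc]
      rw [e1, e2, Subgroup.map_id] at h4
      exact h4
    exact (Subgroup.mem_centralizer_iff.mp (h3 h2)) m hm
  · push Not at hMK
    have h3 := orbitSup_le_centralizer (P : Subgroup G) hK hM hMK
    exact (Subgroup.mem_centralizer_iff.mp (h3 h1)) m hm

end comps

end Cfsg.Agent.Lib.FrattSyl
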